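import Mathlib
import Cfsg.Agent.Lib.Helper48.S4415.RedDefs
import Cfsg.Agent.Lib.Helper22.PComp
import Cfsg.Agent.Lib.Helper1.Commutator

/-!
# S4415, sub-package [R-R3] of [RED] (helper80)

Coprime action of `⟨b⟩` (`b ^ 3 = 1`) on `K = O_{3'}(S)`: `R = ⁅K, ⟨b⟩⁆` satisfies
`⁅R, ⟨b⟩⁆ = R`, has order prime to `3` and is normalized by `R ⊔ ⟨b⟩`.
-/

set_option autoImplicit false

namespace Cfsg.Agent.Lib.Helper80.S4415

open scoped commutatorElement

universe u

theorem pkgR3 : Cfsg.Agent.Lib.Helper48.S4415.PkgR3.{u} := by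
  intro S _ _ b hb3
  have hKn : (Cfsg.pPrimeCore 3 S).Normal := Cfsg.Agent.Lib.Helper22.pPrimeCore_normal' 3 S
  have hKc : (Nat.card (Cfsg.pPrimeCore 3 S)).Coprime 3 :=
    Cfsg.Agent.Lib.Helper22.card_pPrimeCore_coprime 3 S
  have hBK : Subgroup.zpowers b ≤
      Subgroup.normalizer ((Cfsg.pPrimeCore 3 S : Subgroup S) : Set S) := by
    rw [Subgroup.normalizer_eq_top]
    exact le_top
  have hBcard : Nat.card (Subgroup.zpowers b) ∣ 3 := by
    rw [Nat.card_zpowers]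
    exact orderOf_dvd_of_pow_eq_one hb3
  have hcop : (Nat.card (Subgroup.zpowers b)).Coprime (Nat.card (Cfsg.pPrimeCore 3 S)) :=
    Nat.Coprime.coprime_dvd_left hBcard hKc.symm
  have hsolv : Group.IsSolvable (Subgroup.zpowers b) := by
    apply Group.isSolvable_of_comm
    intro x y
    obtain ⟨x, hx⟩ := x
    obtain ⟨y, hy⟩ := y
    obtain ⟨m, rfl⟩ := Subgroup.mem_zpowers_iff.mp hx
    obtain ⟨n, rfl⟩ := Subgroup.mem_zpowers_iff.mp hy
    apply Subtype.ext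
    show b ^ m * b ^ n = b ^ n * b ^ m
    rw [← zpow_add, ← zpow_add, add_comm]
  refine ⟨Cfsg.Agent.Lib.Helper1.coprime_commutator_commutator _ _ hBK hcop (Or.inl hsolv),
    ?_, ?_⟩
  · have hle : ⁅Cfsg.pPrimeCore 3 S, Subgroup.zpowers b⁆ ≤ Cfsg.pPrimeCore 3 S :=
      Cfsg.Agent.Lib.Helper1.commutator_le_of_le_normalizer hBK
    exact Nat.Coprime.coprime_dvd_left (Subgroup.card_dvd_of_le hle) hKc
  · intro g hg r hr
    have h1 : ⁅Cfsg.pPrimeCore 3 S, Subgroup.zpowers b⁆ ⊔ Subgroup.zpowers b ≤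
        Subgroup.normalizer
          ((⁅Cfsg.pPrimeCore 3 S, Subgroup.zpowers b⁆ : Subgroup S) : Set S) :=
      sup_le Subgroup.le_normalizer
        (Cfsg.Agent.Lib.Helper1.le_normalizer_commutator_right _ _)
    exact (Subgroup.mem_normalizer_iff.mp (h1 hg) r).mp hr

end Cfsg.Agent.Lib.Helper80.S4415
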