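import Mathlib
import Cfsg.Agent.Lib.Helper78.S4415.Defs

/-!
# S4415, package [CENTRAL]: a central element of `G` is `1` or acts as `-1`
-/

set_option autoImplicit false

namespace Cfsg.Agent.Lib.Helper80.S4415

open Cfsg.Agent.Lib.Helper78.S4415

universe u v

/-- [CENTRAL] -/
theorem pkgCentral : PkgCentral.{u, v} := by
  intro G _ _ V _ _ _ ρ R b Q hS c hc
  obtain ⟨v, hℓ, hJ⟩ := hS.jordan
  have h3 : ∀ w : V, w + w + w = 0 := by
    intro w
    have h0 : (3 : ZMod 3) • w = 0 := by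
      rw [show (3 : ZMod 3) = 0 from by decide, zero_smul]
    have e : (3 : ZMod 3) • w = w + w + w := by
      rw [show (3 : ZMod 3) = 1 + 1 + 1 from by decide, add_smul, add_smul, one_smul]
    rw [← e]
    exact h0
  have hmul : ∀ (g h : G) (x : V), ρ (g * h) x = ρ g (ρ h x) := by
    intro g h x
    rw [map_mul]
    rfl
  have hone : ∀ x : V, ρ 1 x = x := by
    intro x
    rw [map_one]
    rfl
  have hb3 : ∀ x : V, ρ b (ρ b (ρ b x)) = x := by
    intro x
    rw [← hmul, ← hmul]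
    have e : b * b * b = b ^ 3 := by rw [pow_succ, pow_two]
    rw [e, hS.b3, hone]
  have hcg : ∀ (g : G) (x : V), ρ c (ρ g x) = ρ g (ρ c x) := by
    intro g x
    rw [← hmul, hc g, hmul]
  obtain ⟨ℓ, hℓdef⟩ : ∃ ℓ : V, ℓ = ρ b (ρ b v - v) - (ρ b v - v) := ⟨_, rfl⟩
  rw [← hℓdef] at hℓ
  have hTℓ : ρ b ℓ = ℓ := by
    rw [hℓdef]
    simp only [map_sub]
    rw [hb3 v]
    have h := h3 (ρ b (ρ b v) - ρ b v)
    rw [← sub_eq_zero]
    have e : (v - ρ b (ρ b v) - (ρ b (ρ b v) - ρ b v)) -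
        (ρ b (ρ b v) - ρ b v - (ρ b v - v)) =
        -((ρ b (ρ b v) - ρ b v) + (ρ b (ρ b v) - ρ b v) + (ρ b (ρ b v) - ρ b v)) := by abel
    rw [e, h, neg_zero]
  have hN2 : ∀ x : V, ∃ a : ZMod 3, ρ b (ρ b x - x) - (ρ b x - x) = a • ℓ := by
    intro x
    obtain ⟨a, c', hx⟩ := hJ x
    rw [← hℓdef] at hx
    refine ⟨a, ?_⟩
    rw [hx, map_add, map_smul, map_smul, hTℓ, hℓdef]
    module
  obtain ⟨a, ha⟩ := hN2 (ρ c v)
  have hcℓ : ρ c ℓ = a • ℓ := by
    rw [← ha, hℓdef]
    simp only [map_sub, hcg]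
  have ha0 : a ≠ 0 := by
    intro h0
    rw [h0, zero_smul] at hcℓ
    have h1 : ρ c⁻¹ (ρ c ℓ) = ℓ := by
      rw [← hmul, inv_mul_cancel, hone]
    rw [hcℓ, map_zero] at h1
    exact hℓ h1.symm
  let U : Submodule (ZMod 3) V :=
    { carrier := {x | ρ c x = a • x}
      add_mem' := fun {x y} hx hy => by
        have hx' : ρ c x = a • x := hx
        have hy' : ρ c y = a • y := hy
        show ρ c (x + y) = a • (x + y)
        rw [map_add, smul_add, hx', hy']
      zero_mem' := by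
        show ρ c 0 = a • (0 : V)
        rw [map_zero, smul_zero]
      smul_mem' := fun r x hx => by
        have hx' : ρ c x = a • x := hx
        show ρ c (r • x) = a • (r • x)
        rw [map_smul, hx', smul_comm] }
  have hUinv : ∀ g : G, ∀ x ∈ U, ρ g x ∈ U := by
    intro g x hx
    have hx' : ρ c x = a • x := hx
    show ρ c (ρ g x) = a • ρ g x
    rw [hcg, hx', map_smul]
  have hUtop : U = ⊤ := by
    rcases hS.irr U hUinv with h | h
    · exfalso
      have h1 : ℓ ∈ U := hcℓ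
      rw [h, Submodule.mem_bot] at h1
      exact hℓ h1
    · exact h
  have hall : ∀ x : V, ρ c x = a • x := by
    intro x
    have h1 : x ∈ U := by rw [hUtop]; trivial
    exact h1
  have hcases : a = 0 ∨ a = 1 ∨ a = 2 := (by decide : ∀ a : ZMod 3, a = 0 ∨ a = 1 ∨ a = 2) a
  rcases hcases with h | h | h
  · exact absurd h ha0
  · left
    apply hS.faith
    apply LinearMap.ext
    intro x
    rw [hall x, h, one_smul, hone]
  · right
    intro x
    rw [hall x, h, show (2 : ZMod 3) = -1 from by decide, neg_smul, one_smul]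

end Cfsg.Agent.Lib.Helper80.S4415
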