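import Mathlib
import Cfsg.Agent.Lib.Helper82.S4415.MonDefs
import Cfsg.Agent.Lib.Helper73.S4415.SPBasic

/-!
# S4415, sub-package [MON-4S] of [MON] (helper80): `N` realizes every even sign vector
-/

set_option autoImplicit false

namespace Cfsg.Agent.Lib.Helper80.S4415

open Cfsg.Agent.Lib.Helper82.S4415 Cfsg.Agent.Lib.Helper73.S4415

universe u

theorem fin4_cover80 : ∀ i0 i1 i2 w : Fin 4, i0 ≠ i1 → i1 ≠ i2 → i0 ≠ i2 → w ≠ i0 → w ≠ i1 →
    w ≠ i2 → ∀ j : Fin 4, j = i0 ∨ j = i1 ∨ j = i2 ∨ j = w := by decide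

theorem fin4_fourth80 : ∀ i0 i1 i2 : Fin 4, ∃ w : Fin 4, w ≠ i0 ∧ w ≠ i1 ∧ w ≠ i2 := by decide

theorem fin4_prod80 (f : Fin 4 → ZMod 3) (i0 i1 i2 w : Fin 4) (h01 : i0 ≠ i1) (h12 : i1 ≠ i2)
    (h02 : i0 ≠ i2) (h0 : w ≠ i0) (h1 : w ≠ i1) (h2 : w ≠ i2) :
    ∏ i, f i = f i0 * f i1 * f i2 * f w := by
  have m0 : i0 ∉ ({i1, i2, w} : Finset (Fin 4)) := by simp [h01, h02, h0.symm]
  have m1 : i1 ∉ ({i2, w} : Finset (Fin 4)) := by simp [h12, h1.symm]
  have m2 : i2 ∉ ({w} : Finset (Fin 4)) := by simp [h2.symm]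
  have huniv : (Finset.univ : Finset (Fin 4)) = {i0, i1, i2, w} := by
    symm
    apply Finset.eq_univ_of_card
    rw [Finset.card_insert_of_notMem m0, Finset.card_insert_of_notMem m1,
      Finset.card_insert_of_notMem m2, Finset.card_singleton]
    rfl
  rw [huniv, Finset.prod_insert m0, Finset.prod_insert m1, Finset.prod_insert m2,
    Finset.prod_singleton]
  ring

theorem sign_rot80 : ∀ p q r a b c : ZMod 3, (p = 1 ∨ p = -1) → (q = 1 ∨ q = -1) →
    (r = 1 ∨ r = -1) → (a = 1 ∨ a = -1) → (b = 1 ∨ b = -1) → (c = 1 ∨ c = -1) →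
    p * q * r = 1 → ¬(p = 1 ∧ q = 1 ∧ r = 1) → a * b * c = 1 →
    (a = 1 ∧ b = 1 ∧ c = 1) ∨ (a = p ∧ b = q ∧ c = r) ∨ (a = r ∧ b = p ∧ c = q) ∨
      (a = q ∧ b = r ∧ c = p) := by decide

/-- [MON-4S] -/
theorem pkgMon4S : PkgMon4S.{u} := by
  intro G _ _ R N b σ ε hSP hNR hNn hNσ hex hcyc htr hprod
  obtain ⟨x0, hx0N, hx0b⟩ := hex
  obtain ⟨i0, i1, i2, h01, h12, h02, hc0, hc1, hc2, hcfix⟩ := hcyc
  obtain ⟨w0, hw0, hw1, hw2⟩ := fin4_fourth80 i0 i1 i2
  have hcover := fin4_cover80 i0 i1 i2 w0 h01 h12 h02 hw0 hw1 hw2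
  have hcw : σ b w0 = w0 := hcfix w0 hw0 hw1 hw2
  have hconj : ∀ (g x : G), σ x = 1 → ∀ i, ε (g * x * g⁻¹) (σ g i) = ε x i := by
    intro g x hx i
    have h := sp_conj hSP g⁻¹ x hx (σ g i)
    rw [inv_inv] at h
    rw [h, map_inv]
    exact congrArg (ε x) ((σ g).symm_apply_apply i)
  have hmulN : ∀ x y : G, σ y = 1 → ∀ i, ε (x * y) i = ε y i * ε x i := by
    intro x y hy i
    rw [hSP.2.1 x y i, hy]
    rfl
  obtain ⟨u, hudef⟩ : ∃ u : G, u = x0⁻¹ * (b * x0 * b⁻¹) := ⟨_, rfl⟩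
  have hbx : b * x0 * b⁻¹ ∈ N := hNn.conj_mem x0 hx0N b
  have huN : u ∈ N := by
    rw [hudef]
    exact N.mul_mem (N.inv_mem hx0N) hbx
  have hu1 : u ≠ 1 := by
    intro h
    apply hx0b
    rw [hudef] at h
    have h2 : b * x0 * b⁻¹ = x0 := by
      have h3 := congrArg (fun t => x0 * t) h
      simp only [mul_inv_cancel_left, mul_one] at h3
      exact h3
    calc b * x0 = b * x0 * b⁻¹ * b := by group
      _ = x0 * b := by rw [h2]
  have huσ : σ u = 1 := hNσ u huN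
  have huw : ε u w0 = 1 := by
    rw [hudef, hmulN _ _ (hNσ _ hbx)]
    have h1 := hconj b x0 (hNσ x0 hx0N) w0
    rw [hcw] at h1
    rw [h1]
    have h2 := sp_inv_mul hSP x0 w0
    rw [hNσ x0 hx0N] at h2
    exact h2
  have hune : ¬ (∀ i, ε u i = 1) := fun h => hu1 (hSP.2.2 u huσ h)
  have huprod : ε u i0 * ε u i1 * ε u i2 = 1 := by
    have h := hprod u (hNR huN)
    rw [fin4_prod80 _ i0 i1 i2 w0 h01 h12 h02 hw0 hw1 hw2, huw, mul_one] at h
    exact h
  have hune' : ¬ (ε u i0 = 1 ∧ ε u i1 = 1 ∧ ε u i2 = 1) := by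
    rintro ⟨a0, a1, a2⟩
    apply hune
    intro i
    rcases hcover i with h | h | h | h
    · rw [h]; exact a0
    · rw [h]; exact a1
    · rw [h]; exact a2
    · rw [h]; exact huw
  have hu'N : b * u * b⁻¹ ∈ N := hNn.conj_mem u huN b
  have hu''N : b * (b * u * b⁻¹) * b⁻¹ ∈ N := hNn.conj_mem _ hu'N b
  have hu' : ∀ i, ε (b * u * b⁻¹) (σ b i) = ε u i := hconj b u huσ
  have hu'' : ∀ i, ε (b * (b * u * b⁻¹) * b⁻¹) (σ b i) = ε (b * u * b⁻¹) i :=
    hconj b _ (hNσ _ hu'N)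
  have hA : ∀ d : Fin 4 → ZMod 3, EvenSign d → d w0 = 1 → ∃ x ∈ N, ∀ i, ε x i = d i := by
    intro d hd hdw
    have hdprod : d i0 * d i1 * d i2 = 1 := by
      have h := hd.2
      rw [fin4_prod80 _ i0 i1 i2 w0 h01 h12 h02 hw0 hw1 hw2, hdw, mul_one] at h
      exact h
    rcases sign_rot80 (ε u i0) (ε u i1) (ε u i2) (d i0) (d i1) (d i2) (hSP.1 u i0) (hSP.1 u i1)
      (hSP.1 u i2) (hd.1 i0) (hd.1 i1) (hd.1 i2) huprod hune' hdprod with
      ⟨e0, e1, e2⟩ | ⟨e0, e1, e2⟩ | ⟨e0, e1, e2⟩ | ⟨e0, e1, e2⟩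
    · refine ⟨1, N.one_mem, ?_⟩
      intro i
      rw [sp_one hSP]
      rcases hcover i with h | h | h | h
      · rw [h]; exact e0.symm
      · rw [h]; exact e1.symm
      · rw [h]; exact e2.symm
      · rw [h]; exact hdw.symm
    · refine ⟨u, huN, ?_⟩
      intro i
      rcases hcover i with h | h | h | h
      · rw [h]; exact e0.symm
      · rw [h]; exact e1.symm
      · rw [h]; exact e2.symm
      · rw [h, huw, hdw]
    · refine ⟨b * u * b⁻¹, hu'N, ?_⟩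
      intro i
      rcases hcover i with h | h | h | h
      · have k := hu' i2
        rw [hc2] at k
        rw [h, k, e0]
      · have k := hu' i0
        rw [hc0] at k
        rw [h, k, e1]
      · have k := hu' i1
        rw [hc1] at k
        rw [h, k, e2]
      · have k := hu' w0
        rw [hcw] at k
        rw [h, k, huw, hdw]
    · refine ⟨b * (b * u * b⁻¹) * b⁻¹, hu''N, ?_⟩
      intro i
      rcases hcover i with h | h | h | h
      · have k := hu'' i2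
        rw [hc2] at k
        have k' := hu' i1
        rw [hc1] at k'
        rw [h, k, k', e0]
      · have k := hu'' i0
        rw [hc0] at k
        have k' := hu' i2
        rw [hc2] at k'
        rw [h, k, k', e1]
      · have k := hu'' i1
        rw [hc1] at k
        have k' := hu' i0
        rw [hc0] at k'
        rw [h, k, k', e2]
      · have k := hu'' w0
        rw [hcw] at k
        have k' := hu' w0
        rw [hcw] at k'
        rw [h, k, k', huw, hdw]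
  have hB : ∀ (d : Fin 4 → ZMod 3) (ω : Fin 4), EvenSign d → d ω = 1 →
      ∃ x ∈ N, ∀ i, ε x i = d i := by
    intro d ω hd hdω
    obtain ⟨r, hrR, hr⟩ := htr w0 ω
    have hd' : EvenSign (fun i => d (σ r i)) := by
      refine ⟨fun i => hd.1 _, ?_⟩
      rw [Equiv.prod_comp (σ r) d]
      exact hd.2
    have hd'w : (fun i => d (σ r i)) w0 = 1 := by
      show d (σ r w0) = 1
      rw [hr]
      exact hdω
    obtain ⟨x, hxN, hx⟩ := hA _ hd' hd'w
    refine ⟨r * x * r⁻¹, hNn.conj_mem x hxN r, ?_⟩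
    intro j
    have h := hconj r x (hNσ x hxN) ((σ r).symm j)
    rw [Equiv.apply_symm_apply] at h
    rw [h, hx]
    show d (σ r ((σ r).symm j)) = d j
    rw [Equiv.apply_symm_apply]
  intro d hd
  by_cases hex : ∃ ω, d ω = 1
  · obtain ⟨ω, hω⟩ := hex
    exact hB d ω hd hω
  · push Not at hex
    have hdm : ∀ i, d i = -1 := fun i => (hd.1 i).resolve_left (hex i)
    have hE1 : EvenSign (![-1, -1, 1, 1] : Fin 4 → ZMod 3) := by
      refine ⟨by decide, ?_⟩
      rw [Fin.prod_univ_four]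
      decide
    have hE2 : EvenSign (![1, 1, -1, -1] : Fin 4 → ZMod 3) := by
      refine ⟨by decide, ?_⟩
      rw [Fin.prod_univ_four]
      decide
    obtain ⟨x1, hx1N, hx1⟩ := hB ![-1, -1, 1, 1] 2 hE1 (by decide)
    obtain ⟨x2, hx2N, hx2⟩ := hB ![1, 1, -1, -1] 0 hE2 (by decide)
    refine ⟨x1 * x2, N.mul_mem hx1N hx2N, ?_⟩
    intro i
    rw [hmulN _ _ (hNσ x2 hx2N), hx1, hx2, hdm]
    revert i
    decide

end Cfsg.Agent.Lib.Helper80.S4415
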