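import Mathlib
import Cfsg.Agent.Lib.Helper78.S4415.Defs

/-!
# S4415, package [NORMCENT]: a normal subgroup of `G` centralized by `b` is central
-/

set_option autoImplicit false

namespace Cfsg.Agent.Lib.Helper80.S4415

open Cfsg.Agent.Lib.Helper78.S4415

universe u v

/-- [NORMCENT] -/
theorem pkgNormCent : PkgNormCent.{u, v} := by
  intro G _ _ V _ _ _ ρ R b Q hS M hM hb x hx g
  have hCn : (Subgroup.centralizer (M : Set G)).Normal := inferInstance
  have hbC : b ∈ Subgroup.centralizer (M : Set G) := by
    rw [Subgroup.mem_centralizer_iff]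
    intro h hh
    exact (hb h hh).symm
  have hzb : Subgroup.zpowers b ≤ Subgroup.centralizer (M : Set G) :=
    (Subgroup.zpowers_le).mpr hbC
  have hR : R ≤ Subgroup.centralizer (M : Set G) := by
    have h1 : ⁅R, Subgroup.zpowers b⁆ ≤ Subgroup.centralizer (M : Set G) :=
      (Subgroup.commutator_mono le_top hzb).trans (Subgroup.commutator_le_right _ _)
    rw [hS.comm] at h1
    exact h1
  have htop : (⊤ : Subgroup G) ≤ Subgroup.centralizer (M : Set G) := by
    rw [← hS.gen]
    exact sup_le hR hzb
  exact (Subgroup.mem_centralizer_iff.mp (htop (Subgroup.mem_top g))) x hx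

end Cfsg.Agent.Lib.Helper80.S4415
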