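import Mathlib
import Cfsg.Agent.Lib.Helper48.S4415.RedDefs

/-!
# S4415, sub-package [R-JORD] of [RED] (helper80)

The Jordan condition on `E = E₀ ⊕ E₁` from the one on `E₀` (`|E₀| = 27`, `b` trivial on `E₁`).
-/

set_option autoImplicit false

namespace Cfsg.Agent.Lib.Helper80.S4415

open Cfsg.Agent.Lib.Helper78.S4415

universe u v

theorem pkgJord : Cfsg.Agent.Lib.Helper48.S4415.PkgJord.{u, v} := by
  intro S _ E _ _ _ ρ b hb3 E₀ E₁ _ hsup hfix hinv hcard hex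
  obtain ⟨v, hv0, hℓ⟩ := hex
  have h3 : ∀ w : E, w + w + w = 0 := by
    intro w
    have h0 : (3 : ZMod 3) • w = 0 := by
      rw [show (3 : ZMod 3) = 0 from by decide, zero_smul]
    have e : (3 : ZMod 3) • w = w + w + w := by
      rw [show (3 : ZMod 3) = 1 + 1 + 1 from by decide, add_smul, add_smul, one_smul]
    rw [← e]
    exact h0
  have hmul : ∀ (g h : S) (x : E), ρ (g * h) x = ρ g (ρ h x) := by
    intro g h x
    rw [map_mul]
    rfl
  have hone : ∀ x : E, ρ 1 x = x := by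
    intro x
    rw [map_one]
    rfl
  have hb3' : ∀ x : E, ρ b (ρ b (ρ b x)) = x := by
    intro x
    rw [← hmul, ← hmul]
    have e : b * b * b = b ^ 3 := by rw [pow_succ, pow_two]
    rw [e, hb3, hone]
  obtain ⟨w, hwdef⟩ : ∃ w : E, w = ρ b v - v := ⟨_, rfl⟩
  obtain ⟨ℓ, hℓdef⟩ : ∃ ℓ : E, ℓ = ρ b w - w := ⟨_, rfl⟩
  rw [← hwdef, ← hℓdef] at hℓ
  have hTℓ : ρ b ℓ = ℓ := by
    rw [hℓdef, hwdef]
    simp only [map_sub]
    rw [hb3' v]
    have h := h3 (ρ b (ρ b v) - ρ b v)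
    rw [← sub_eq_zero]
    have e : (v - ρ b (ρ b v) - (ρ b (ρ b v) - ρ b v)) -
        (ρ b (ρ b v) - ρ b v - (ρ b v - v)) =
        -((ρ b (ρ b v) - ρ b v) + (ρ b (ρ b v) - ρ b v) + (ρ b (ρ b v) - ρ b v)) := by abel
    rw [e, h, neg_zero]
  have hw0 : w ∈ E₀ := by
    rw [hwdef]
    exact E₀.sub_mem (hinv v hv0) hv0
  have hℓ0 : ℓ ∈ E₀ := by
    rw [hℓdef]
    exact E₀.sub_mem (hinv w hw0) hw0
  have e1 : ρ b v = w + v := by
    rw [hwdef]
    abel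
  have e2 : ρ b w = ℓ + w := by
    rw [hℓdef]
    abel
  have hN : ∀ α β γ : ZMod 3,
      ρ b (α • v + β • w + γ • ℓ) - (α • v + β • w + γ • ℓ) = α • w + β • ℓ := by
    intro α β γ
    rw [map_add, map_add, map_smul, map_smul, map_smul, hTℓ, e1, e2]
    module
  have hindep : ∀ α β γ : ZMod 3, α • v + β • w + γ • ℓ = 0 → α = 0 ∧ β = 0 ∧ γ = 0 := by
    intro α β γ h
    have h1 : α • w + β • ℓ = 0 := by
      rw [← hN α β γ, h, map_zero, sub_zero]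
    have h2 : α • ℓ = 0 := by
      have h' := hN 0 α β
      rw [zero_smul, zero_add, h1, map_zero, sub_zero, zero_smul, zero_add] at h'
      exact h'.symm
    have hα : α = 0 := (smul_eq_zero.mp h2).resolve_right hℓ
    rw [hα, zero_smul, zero_add] at h1
    have hβ : β = 0 := (smul_eq_zero.mp h1).resolve_right hℓ
    rw [hα, hβ, zero_smul, zero_smul, zero_add, zero_add] at h
    exact ⟨hα, hβ, (smul_eq_zero.mp h).resolve_right hℓ⟩
  have hmem : ∀ p : ZMod 3 × ZMod 3 × ZMod 3, p.1 • v + p.2.1 • w + p.2.2 • ℓ ∈ E₀ := by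
    intro p
    exact E₀.add_mem (E₀.add_mem (E₀.smul_mem _ hv0) (E₀.smul_mem _ hw0)) (E₀.smul_mem _ hℓ0)
  have hinj : Function.Injective
      (fun p : ZMod 3 × ZMod 3 × ZMod 3 => (⟨p.1 • v + p.2.1 • w + p.2.2 • ℓ, hmem p⟩ : ↥E₀)) := by
    intro p q hpq
    have h := congrArg Subtype.val hpq
    have h' : p.1 • v + p.2.1 • w + p.2.2 • ℓ = q.1 • v + q.2.1 • w + q.2.2 • ℓ := h
    have h0 : (p.1 - q.1) • v + (p.2.1 - q.2.1) • w + (p.2.2 - q.2.2) • ℓ = 0 := by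
      rw [sub_smul, sub_smul, sub_smul]
      have e : p.1 • v - q.1 • v + (p.2.1 • w - q.2.1 • w) + (p.2.2 • ℓ - q.2.2 • ℓ) =
          (p.1 • v + p.2.1 • w + p.2.2 • ℓ) - (q.1 • v + q.2.1 • w + q.2.2 • ℓ) := by abel
      rw [e, h', sub_self]
    obtain ⟨ha, hb, hc⟩ := hindep _ _ _ h0
    exact Prod.ext (sub_eq_zero.mp ha) (Prod.ext (sub_eq_zero.mp hb) (sub_eq_zero.mp hc))
  have hcard2 : Nat.card (ZMod 3 × ZMod 3 × ZMod 3) = 27 := by
    rw [Nat.card_prod, Nat.card_prod, Nat.card_zmod]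
  have hbij := hinj.bijective_of_nat_card_le (le_of_eq (hcard.trans hcard2.symm))
  refine ⟨v, ?_, ?_⟩
  · rw [← hwdef, ← hℓdef]
    exact hℓ
  · intro x
    rw [← hwdef, ← hℓdef]
    have hx : x ∈ E₀ ⊔ E₁ := by
      rw [hsup]
      exact Submodule.mem_top
    obtain ⟨e0, he0, e1', he1, rfl⟩ := Submodule.mem_sup.mp hx
    obtain ⟨p, hp⟩ := hbij.2 ⟨e0, he0⟩
    have hp' : p.1 • v + p.2.1 • w + p.2.2 • ℓ = e0 := congrArg Subtype.val hp
    refine ⟨p.1, p.2.1, ?_⟩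
    rw [← hN p.1 p.2.1 p.2.2, hp', map_add, hfix e1' he1]
    abel
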