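import Mathlib
import Cfsg.Agent.Lib.Helper65.S4415.ExtDefs

/-!
# S4415, sub-package [X-DIM] of [EXT] (helper80): `|V| = 81`

`J = ρ x ∘ ρ y` has `J² = -1`, so `J - 1` is onto; `J v - v = N (x t) - x (N t)` with
`N = ρ b - 1` of rank two, so `V` is spanned by four vectors; the frame gives three independent
vectors; and `det J ^ 2 = (-1) ^ dim V` excludes dimension three.
-/

set_option autoImplicit false

namespace Cfsg.Agent.Lib.Helper80.S4415

open Cfsg.Agent.Lib.Helper78.S4415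

universe u v

theorem pkgXDim : Cfsg.Agent.Lib.Helper65.S4415.PkgXDim.{u, v} := by
  intro G _ _ V _ _ _ ρ R b Q hS hF x y z hz hxx hyy hyx hbx
  have h3 : ∀ w : V, w + w + w = 0 := by
    intro w
    have h0 : (3 : ZMod 3) • w = 0 := by
      rw [show (3 : ZMod 3) = 0 from by decide, zero_smul]
    have e : (3 : ZMod 3) • w = w + w + w := by
      rw [show (3 : ZMod 3) = 1 + 1 + 1 from by decide, add_smul, add_smul, one_smul]
    rw [← e]
    exact h0
  have hmul : ∀ (g h : G) (v : V), ρ (g * h) v = ρ g (ρ h v) := by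
    intro g h v
    rw [map_mul]
    rfl
  have hone : ∀ v : V, ρ 1 v = v := by
    intro v
    rw [map_one]
    rfl
  have hX2 : ∀ v : V, ρ x (ρ x v) = -v := by
    intro v
    rw [← hmul, hxx, hz]
  have hY2 : ∀ v : V, ρ y (ρ y v) = -v := by
    intro v
    rw [← hmul, hyy, hz]
  have hYX : ∀ v : V, ρ y (ρ x v) = -ρ x (ρ y v) := by
    intro v
    rw [← hmul, hyx, hmul, hmul, hz]
  have hYb : ∀ v : V, ρ y v = ρ b (ρ x (ρ b⁻¹ v)) := by
    intro v
    rw [← hbx, hmul, hmul]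
  have hxinv : ∀ v : V, ρ x (ρ x⁻¹ v) = v := by
    intro v
    rw [← hmul, mul_inv_cancel, hone]
  have hbinv : ∀ v : V, ρ b (ρ b⁻¹ v) = v := by
    intro v
    rw [← hmul, mul_inv_cancel, hone]
  have hJX : ∀ u : V, ρ x (ρ y (ρ x u)) = ρ y u := by
    intro u
    rw [hYX, map_neg, hX2, neg_neg]
  have hJ2 : ∀ v : V, ρ x (ρ y (ρ x (ρ y v))) = -v := by
    intro v
    rw [hJX, hY2]
  obtain ⟨v0, -, hJord⟩ := hS.jordan
  obtain ⟨n1, hn1⟩ : ∃ n1 : V, n1 = ρ b v0 - v0 := ⟨_, rfl⟩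
  obtain ⟨n2, hn2⟩ : ∃ n2 : V, n2 = ρ b n1 - n1 := ⟨_, rfl⟩
  have hJord' : ∀ s : V, ∃ a c : ZMod 3, ρ b s - s = a • n1 + c • n2 := by
    intro s
    obtain ⟨a, c, h⟩ := hJord s
    rw [← hn1, ← hn2] at h
    exact ⟨a, c, h⟩
  have hspan1 : ∀ v : V, ∃ a1 a2 a3 a4 : ZMod 3,
      ρ x (ρ y v) - v = a1 • n1 + a2 • n2 + a3 • ρ x n1 + a4 • ρ x n2 := by
    intro v
    obtain ⟨u, hu⟩ : ∃ u : V, u = ρ x⁻¹ v := ⟨_, rfl⟩
    obtain ⟨t, ht⟩ : ∃ t : V, t = ρ b⁻¹ u := ⟨_, rfl⟩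
    have hv : ρ x u = v := by rw [hu, hxinv]
    have hu' : ρ b t = u := by rw [ht, hbinv]
    have e : ρ x (ρ y v) = ρ b (ρ x t) := by
      rw [← hv, hJX, hYb, ← ht]
    obtain ⟨a, c, h1⟩ := hJord' (ρ x t)
    obtain ⟨a', c', h2⟩ := hJord' t
    refine ⟨a, c, -a', -c', ?_⟩
    have e2 : ρ x (ρ y v) - v = (ρ b (ρ x t) - ρ x t) - ρ x (ρ b t - t) := by
      rw [e, map_sub, hu', hv]
      abel
    rw [e2, h1, h2, map_add, map_smul, map_smul]
    module
  have hsurj : Function.Surjective (fun p : ZMod 3 × ZMod 3 × ZMod 3 × ZMod 3 =>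
      p.1 • n1 + p.2.1 • n2 + p.2.2.1 • ρ x n1 + p.2.2.2 • ρ x n2) := by
    intro v'
    obtain ⟨a1, a2, a3, a4, h⟩ := hspan1 (ρ x (ρ y v') + v')
    refine ⟨(a1, a2, a3, a4), ?_⟩
    show a1 • n1 + a2 • n2 + a3 • ρ x n1 + a4 • ρ x n2 = v'
    rw [← h, map_add, map_add, hJ2]
    have h' := h3 v'
    have e : -v' + ρ x (ρ y v') - (ρ x (ρ y v') + v') = v' - (v' + v' + v') := by abel
    rw [e, h', sub_zero]
  have hle : Nat.card V ≤ 81 := by
    have h := Nat.card_le_card_of_surjective _ hsurj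
    rw [Nat.card_prod, Nat.card_prod, Nat.card_prod, Nat.card_zmod] at h
    exact h
  obtain ⟨q₁, q₂, w₁, w₂, w₃, -, -, -, -, -, -, -, -, -, -, -, -, -, -, -, -, -, -, -, -, huniq⟩ := hF
  have hinj : Function.Injective (fun p : ZMod 3 × ZMod 3 × ZMod 3 =>
      p.1 • w₁ + p.2.1 • w₂ + p.2.2 • w₃) := by
    intro p q hpq
    have h' : p.1 • w₁ + p.2.1 • w₂ + p.2.2 • w₃ = q.1 • w₁ + q.2.1 • w₂ + q.2.2 • w₃ := hpq
    have h0 : (0 : V) + (p.1 - q.1) • w₁ + (p.2.1 - q.2.1) • w₂ + (p.2.2 - q.2.2) • w₃ = 0 := by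
      rw [sub_smul, sub_smul, sub_smul]
      have e : (0 : V) + (p.1 • w₁ - q.1 • w₁) + (p.2.1 • w₂ - q.2.1 • w₂) +
          (p.2.2 • w₃ - q.2.2 • w₃) =
          (p.1 • w₁ + p.2.1 • w₂ + p.2.2 • w₃) - (q.1 • w₁ + q.2.1 • w₂ + q.2.2 • w₃) := by abel
      rw [e, h', sub_self]
    obtain ⟨-, ha, hb, hc⟩ := huniq 0 _ _ _ (map_zero _) (map_zero _) h0
    exact Prod.ext (sub_eq_zero.mp ha) (Prod.ext (sub_eq_zero.mp hb) (sub_eq_zero.mp hc))
  have hge : 27 ≤ Nat.card V := by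
    have h := Nat.card_le_card_of_injective _ hinj
    rw [Nat.card_prod, Nat.card_prod, Nat.card_zmod] at h
    exact h
  have hcard : Nat.card V = 3 ^ Module.finrank (ZMod 3) V := by
    have h := Module.natCard_eq_pow_finrank (K := ZMod 3) (V := V)
    rw [Nat.card_zmod] at h
    exact h
  obtain ⟨d, hd⟩ : ∃ d : ℕ, d = Module.finrank (ZMod 3) V := ⟨_, rfl⟩
  rw [← hd] at hcard
  have hd4 : d ≤ 4 := by
    rw [hcard] at hle
    exact (Nat.pow_le_pow_iff_right (by norm_num : 1 < 3)).mp (by norm_num; exact hle)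
  have hd3 : 3 ≤ d := by
    rw [hcard] at hge
    exact (Nat.pow_le_pow_iff_right (by norm_num : 1 < 3)).mp (by norm_num; exact hge)
  have hdet : LinearMap.det (ρ (x * y)) * LinearMap.det (ρ (x * y)) = (-1 : ZMod 3) ^ d := by
    have hcomp : (ρ (x * y)).comp (ρ (x * y)) = (-1 : ZMod 3) • LinearMap.id := by
      apply LinearMap.ext
      intro v
      rw [LinearMap.comp_apply, hmul, hmul, hJ2, LinearMap.smul_apply, LinearMap.id_apply,
        neg_smul, one_smul]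
    rw [← LinearMap.det_comp, hcomp, LinearMap.det_smul, LinearMap.det_id, mul_one, hd]
  have hd' : d = 4 := by
    rcases Nat.lt_or_ge d 4 with h | h
    · have hd3' : d = 3 := by omega
      rw [hd3'] at hdet
      exfalso
      have hdec : ∀ t : ZMod 3, t * t ≠ (-1 : ZMod 3) ^ 3 := by decide
      exact hdec _ hdet
    · omega
  rw [hcard, hd']
  norm_num
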